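import Cfsg.Agent.H24.MeetLift
import Cfsg.Agent.H94.CongIndex
import Cfsg.Agent.H94.StrongClosure
import Cfsg.Agent.H20.PxQ
import Mathlib.GroupTheory.SemidirectProduct

/-!
Extension of automorphisms of order prime to `p` fixing `X` and `N_K(X)`, `K` strongly closed and `X` fully
normalized: after a change of representatives they extend to automorphisms fixing all of `K`.
-/

set_option autoImplicit false

namespace Cfsg.Agent.H94.Balance

open Cfsg Cfsg.FusionSystem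
open Cfsg.Agent.H93 (Mor)
open Cfsg.Agent.H94.Meet (exists_conjAut)
open Cfsg.Agent.H24.Meet (exists_coprime_pow coprime_conjAut mor_restrict_sup)

variable {Ω : Type*} [Group Ω] {S K X A : Subgroup Ω} {F : FusionSystem S} {p : ℕ}

/-- Thompson's `P × Q` lemma for one automorphism. -/
theorem fix_of_fix_centralizer {H : Type*} [Group H] [Finite H] [Fact p.Prime] (hH : IsPGroup p H)
    (α : MulAut H) (hα : (orderOf α).Coprime p) (Y M : Subgroup H) (hYM : Y ≤ Subgroup.normalizer (M : Set H))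
    (hαY : ∀ y ∈ Y, α y = y) (hαM : ∀ m ∈ M, α m ∈ M)
    (hC : ∀ m ∈ M, (∀ y ∈ Y, y * m = m * y) → α m = m) {m : H} (hm : m ∈ M) : α m = m := by
  obtain ⟨B, hB⟩ : ∃ B : Subgroup (MulAut H), B = Subgroup.zpowers α := ⟨_, rfl⟩
  have hαB : α ∈ B := hB ▸ Subgroup.mem_zpowers α
  have : Finite (MulAut H) := Finite.of_injective (fun e : MulAut H => (e : H → H)) DFunLike.coe_injective
  have hfix : ∀ b : B, ∀ h : H, α h = h → (b : MulAut H) h = h := by
    intro b h hh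
    have hle : B ≤ MulAction.stabilizer (MulAut H) h := by
      rw [hB, Subgroup.zpowers_le]
      exact hh
    exact hle b.2
  have hBM : ∀ b : B, ∀ x ∈ M, (b : MulAut H) x ∈ M := by
    intro b x hx
    obtain ⟨j, hj⟩ : (b : MulAut H) ∈ Submonoid.powers α := by
      rw [(isOfFinOrder_of_finite α).mem_powers_iff_mem_zpowers, ← hB]
      exact b.2
    rw [← hj]
    clear hj
    induction j with
    | zero => exact hx
    | succ j ih =>
      show (α ^ (j + 1)) x ∈ M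
      rw [pow_succ']
      exact hαM _ ih
  have : Finite (H ⋊[B.subtype] B) := Finite.of_equiv (H × B) SemidirectProduct.equivProd.symm
  let G := H ⋊[B.subtype] B
  let U : Subgroup G := M.map SemidirectProduct.inl
  let P : Subgroup G := Y.map SemidirectProduct.inl
  let Q : Subgroup G := (SemidirectProduct.inr : B →* G).range
  have hconj : ∀ (b : B) (h : H), (SemidirectProduct.inr b : G) * SemidirectProduct.inl h *
      (SemidirectProduct.inr b)⁻¹ = SemidirectProduct.inl ((b : MulAut H) h) := fun b h => by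
    rw [← map_inv]
    exact (SemidirectProduct.inl_aut b h).symm
  have hPU : P ≤ Subgroup.normalizer (U : Set G) :=
    (Subgroup.map_mono hYM).trans (Subgroup.le_normalizer_map _)
  have hQU : Q ≤ Subgroup.normalizer (U : Set G) := by
    rw [Subgroup.le_normalizer_iff]
    rintro _ ⟨b, rfl⟩ _ ⟨x, hx, rfl⟩
    rw [hconj]
    exact Subgroup.mem_map_of_mem _ (hBM b x hx)
  have hPQ : P ≤ Subgroup.centralizer (Q : Set G) := by
    rintro _ ⟨y, hy, rfl⟩
    rw [Subgroup.mem_centralizer_iff]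
    rintro _ ⟨b, rfl⟩
    have h := hconj b y
    rw [hfix b y (hαY y hy)] at h
    exact mul_inv_eq_iff_eq_mul.1 h
  have hcard : Nat.card Q = orderOf α := by
    rw [← Nat.card_congr (MonoidHom.ofInjective SemidirectProduct.inr_injective).toEquiv, hB]
    exact Nat.card_zpowers α
  have hQp : (Nat.card Q).Coprime p := hcard.symm ▸ hα
  have hfin : U ⊓ Subgroup.centralizer (P : Set G) ≤ Subgroup.centralizer (Q : Set G) := by
    rintro _ ⟨⟨x, hx, rfl⟩, hc⟩
    replace hc := Subgroup.mem_centralizer_iff.1 hc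
    rw [Subgroup.mem_centralizer_iff]
    have hαx : α x = x := hC x hx fun y hy => by
      have h := hc _ (Subgroup.mem_map_of_mem _ hy)
      rw [← map_mul, ← map_mul] at h
      exact SemidirectProduct.inl_injective h
    rintro _ ⟨b, rfl⟩
    have h := hconj b x
    rw [hfix b x hαx] at h
    exact mul_inv_eq_iff_eq_mul.1 h
  have key := H20.p_times_q (P := P) (Q := Q) (U := U) ((hH.to_subgroup Y).map _) hQp
    ((hH.to_subgroup M).map _) hPQ hPU hQU hfin
  have h1 := Subgroup.mem_centralizer_iff.1 (key ⟨⟨α, hαB⟩, rfl⟩) _ (Subgroup.mem_map_of_mem _ hm)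
  have h2 := hconj ⟨α, hαB⟩ m
  rw [← h1, mul_inv_cancel_right] at h2
  exact (SemidirectProduct.inl_injective h2).symm

/-- A state of the climbing: the automorphism transported to a subgroup containing the image of the source. -/
def State (F : FusionSystem S) (p : ℕ) (K A : Subgroup Ω) (a : MulAut A) (W : Subgroup Ω) : Prop :=
  ∃ (A' : Subgroup Ω) (π g : Ω → Ω) (γ : MulAut W), W ≤ S ∧ Mor F A A' π ∧ A' ≤ W ∧ Mor F W W g ∧
    (∀ y : W, ((γ y : W) : Ω) = g y) ∧ (orderOf γ).Coprime p ∧ (∀ y ∈ W, y ∈ K → g y = y) ∧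
    ∀ x : A, g (π x) = π ((a x : A) : Ω)

/-- The images of `N_K(X)` are the full normalizers of the image of `X` in `K`. -/
theorem inf_normalizer_le [Finite S] [Fact p.Prime] (hS : IsPGroup p S) (hF : F.IsSaturated p)
    (hK : F.StronglyClosed K) (hX : F.IsFullyNormalized X) (hXA : X ≤ A) (hKA : K ⊓ normalizerIn S X ≤ A)
    {A' X' : Subgroup Ω} {π : Ω → Ω} (hπ : Mor F A A' π) (hπX : Mor F X X' π) :
    K ⊓ normalizerIn S X' ≤ A' := by
  obtain ⟨T₁, hT₁, hπT⟩ := hπ.restrict hKA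
  have := H96.finite_of_le (S := S) (P := K ⊓ normalizerIn S X') (inf_le_left.trans hK.1)
  have := H96.finite_of_le (S := S) (P := K ⊓ normalizerIn S X) (inf_le_left.trans hK.1)
  have hle : T₁ ≤ K ⊓ normalizerIn S X' := by
    intro y hy
    obtain ⟨x, hx, rfl⟩ := hπT.surj hy
    refine ⟨?_, hπ.map_mem_normalizerIn hπX hXA (hKA hx) hx.2.2⟩
    obtain ⟨ψ, hψ, -, hψv⟩ := id hπT
    rw [← hψv ⟨x, hx⟩]
    exact H93.StronglyClosed.apply_mem hK hψ _ hx.1
  obtain ⟨ψ, hψ, hψN, himg⟩ :=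
    H93.exists_map_to_fullyNormalized hS hF hX (H93.isConj_symm hπX.isConj)
  have hcard : Nat.card ↥(K ⊓ normalizerIn S X') ≤ Nat.card ↥(K ⊓ normalizerIn S X) :=
    Nat.card_le_card_of_injective (fun x => (⟨ψ ⟨x, x.2.2⟩,
      H93.StronglyClosed.apply_mem hK hψ ⟨x, x.2.2⟩ x.2.1, hψN _⟩ : ↥(K ⊓ normalizerIn S X)))
      fun x y e => Subtype.ext (congrArg Subtype.val (F.injective_of_mem hψ (congrArg Subtype.val e)) :)
  exact (Subgroup.eq_of_le_of_card_ge hle (hcard.trans hπT.card_eq.le)).ge.trans hT₁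

/-- The step of the climbing: a state not containing `K` gives a larger one. -/
theorem State.step [Finite S] [Fact p.Prime] (hS : IsPGroup p S) (hF : F.IsSaturated p)
    (hK : F.StronglyClosed K) (hX : F.IsFullyNormalized X) (hXA : X ≤ A) (hKA : K ⊓ normalizerIn S X ≤ A)
    {a : MulAut A} (hfix : ∀ x : A, (x : Ω) ∈ X → a x = x) {W : Subgroup Ω} (h : State F p K A a W) :
    ∃ W', State F p K A a W' ∧ (K ≤ W' ∨ Nat.card W < Nat.card W') := by
  obtain ⟨A', π, g, γ, hWS, hπ, hA'W, hg, hγ, hγp, hgK, hga⟩ := h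
  obtain ⟨W', ⟨φ, hφ, hr⟩, hW'⟩ := H93.exists_isFullyNormalized F hWS
  obtain ⟨k, hk, -⟩ := H93.exists_mor hφ hr
  obtain ⟨γ', hγ'⟩ := exists_conjAut hk γ
  have hγ'p := coprime_conjAut hk hγ' hγp
  obtain ⟨ki, hki, hki1, hki2⟩ := hk.exists_inv
  obtain ⟨g', hg'def⟩ : ∃ g' : Ω → Ω, g' = fun y => k (g (ki y)) := ⟨_, rfl⟩
  have hg' : Mor F W' W' g' := hg'def ▸ hk.comp (hg.comp hki)
  have hg'k : ∀ x ∈ W, g' (k x) = k (g x) := fun x hx => by
    rw [hg'def]
    show k (g (ki (k x))) = _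
    rw [hki1 x hx]
  have hγ'e : ∀ y : W', ((γ' y : W') : Ω) = g' y := by
    intro y
    obtain ⟨x, hx, hxy⟩ := hk.surj y.2
    rw [show y = ⟨k x, hk.map_mem hx⟩ from Subtype.ext hxy.symm, ← hγ' ⟨x, hx⟩, hγ, hg'k x hx]
  have hkiK : ∀ y ∈ W', y ∈ K → ki y ∈ K := fun y hy hyK => by
    obtain ⟨ψ, hψ, -, hψv⟩ := id hki
    rw [← hψv ⟨y, hy⟩]
    exact H93.StronglyClosed.apply_mem hK hψ _ hyK
  have hg'K : ∀ y ∈ W', y ∈ K → g' y = y := fun y hy hyK => by
    rw [hg'def]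
    show k (g (ki y)) = y
    rw [hgK _ (hki.map_mem hy) (hkiK y hy hyK), hki2 y hy]
  obtain ⟨A'', hA'', hkA⟩ := hk.restrict hA'W
  have hπ' : Mor F A A'' (fun x => k (π x)) := hkA.comp hπ
  have hga' : ∀ x : A, g' (k (π x)) = k (π ((a x : A) : Ω)) := fun x => by
    rw [hg'k _ (hA'W (hπ.map_mem x.2)), hga]
  have hW'S := hW'.1
  by_cases hKW : K ≤ W'
  · exact ⟨W', ⟨A'', _, g', γ', hW'S, hπ', hA'', hg', hγ'e, hγ'p, hg'K, hga'⟩, Or.inl hKW⟩
  have := H96.finite_of_le hW'S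
  obtain ⟨M, hMdef⟩ : ∃ M, M = K ⊓ normalizerIn S W' := ⟨_, rfl⟩
  have hMK : M ≤ K := hMdef ▸ inf_le_left
  have hMN : M ≤ normalizerIn S W' := hMdef ▸ inf_le_right
  have hKn := H93.StronglyClosed.le_normalizer hK
  -- some element of `K` outside `W'` normalizes it
  obtain ⟨t, htM, htW⟩ : ∃ t ∈ M, t ∉ W' := by
    have hle : W' ⊔ K ≤ S := sup_le hW'S hK.1
    have := H96.finite_of_le hle
    obtain ⟨y, ⟨hyWK, hyN⟩, hyW⟩ := SetLike.exists_of_lt (H94.lt_normalizerIn (hS.to_le hle)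
      (lt_of_le_of_ne le_sup_left fun h => hKW (h ▸ le_sup_right)))
    obtain ⟨u, hu, t, ht, rfl⟩ := H94.exists_mul_of_mem_sup hW'S hK hyWK
    refine ⟨t, hMdef ▸ ⟨ht, hK.1 ht, ?_⟩, fun htU => hyW (W'.mul_mem hu htU)⟩
    have := mul_mem (inv_mem (Subgroup.le_normalizer hu)) hyN
    simpa using this
  have hγ'F : γ' ∈ F.autGroup W' := by
    obtain ⟨b, hb, hbe⟩ := hg'.exists_aut
    rwa [show γ' = b from MulEquiv.ext fun y => Subtype.ext ((hγ'e y).trans (hbe y).symm)]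
  have hWn : W' ≤ Subgroup.normalizer ((W' ⊓ K : Subgroup Ω) : Set Ω) := by
    intro w hw
    have := H96.finite_of_le (S := S) (P := W' ⊓ K) (inf_le_left.trans hW'S)
    refine H94.mem_normalizer_of_forall_conj_mem (fun x hx => ⟨?_, ?_⟩) (R := W' ⊓ K)
    · exact W'.mul_mem (W'.mul_mem hw hx.1) (W'.inv_mem hw)
    · exact H93.StronglyClosed.conj_mem hK (hW'S hw) hx.2
  have hinv : ∀ b ∈ F.autGroup W', ∀ x : W', (x : Ω) ∈ W' ⊓ K → ((b x : W') : Ω) ∈ W' ⊓ K :=
    fun b hb x hx => ⟨(b x).2, H93.StronglyClosed.aut_mem hK hW'S hb x hx.2⟩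
  have hfixQ : ∀ x : W', (x : Ω) ∈ W' ⊓ K → γ' x = x := fun x hx =>
    Subtype.ext ((hγ'e x).trans (hg'K x x.2 hx.2))
  -- the transport of the conjugations by `M`
  have hext : ∀ m ∈ M, m ∈ normalizerIn S W' ∧
      ∃ u ∈ S, ∀ x ∈ W', g' (m * x * m⁻¹) = u * g' x * u⁻¹ := by
    intro m hm
    refine ⟨hMN hm, ?_⟩
    obtain ⟨c, hc, hce⟩ := H94.exists_autInducedBy (K := S) (P := W') (hMN hm).1 (hMN hm).2
    have hcQ : ∀ z : W', ((z⁻¹ * c z : W') : Ω) ∈ W' ⊓ K := by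
      intro z
      refine ⟨(z⁻¹ * c z).2, ?_⟩
      rw [Subgroup.coe_mul, Subgroup.coe_inv, hce]
      have h1 := H93.StronglyClosed.conj_mem hK (S.inv_mem (hW'S z.2)) (hMK hm)
      have h2 := K.mul_mem h1 (K.inv_mem (hMK hm))
      simpa [mul_assoc] using h2
    have hcF := H96.autInducedBy_le_autGroup F hW'S hc
    have hδ : γ' * c * γ'⁻¹ * c⁻¹ ∈ autInducedBy S W' := by
      refine H94.mem_autInducedBy_of_stabilizes (M := F) (Q := W' ⊓ K) hS
        (H94.fullyNormalized_spec hS hF hW').1 hWn hinv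
        (mul_mem (mul_mem (mul_mem hγ'F hcF) (inv_mem hγ'F)) (inv_mem hcF)) (fun x hx => ?_) (fun y => ?_)
      · obtain ⟨z, hz, hzQ⟩ : ∃ z, c z = x ∧ (z : Ω) ∈ W' ⊓ K :=
          ⟨c⁻¹ x, c.apply_symm_apply x, hinv _ (inv_mem hcF) x hx⟩
        rw [MulAut.mul_apply, MulAut.mul_apply, MulAut.mul_apply, show c⁻¹ x = z from
          (congrArg (⇑c⁻¹) hz.symm).trans (c.symm_apply_apply z),
          show γ'⁻¹ z = z from (congrArg (⇑γ'⁻¹) (hfixQ z hzQ).symm).trans (γ'.symm_apply_apply z), hz,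
          hfixQ x hx]
      · obtain ⟨z, hz⟩ : ∃ z, c (γ' z) = y :=
          ⟨γ'⁻¹ (c⁻¹ y), by rw [MulAut.apply_inv_self, MulAut.apply_inv_self]⟩
        subst hz
        rw [MulAut.mul_apply, MulAut.mul_apply, MulAut.mul_apply, MulAut.inv_apply_self, MulAut.inv_apply_self,
          show (c (γ' z))⁻¹ * γ' (c z) = (c (γ' z))⁻¹ * γ' z * γ' (z⁻¹ * c z) by
            rw [map_mul, map_inv]; group, hfixQ _ (hcQ z), Subgroup.coe_mul]
        refine Subgroup.mul_mem _ ?_ (hcQ z)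
        have h1 := Subgroup.inv_mem _ (hcQ (γ' z))
        rw [← Subgroup.coe_inv, mul_inv_rev, inv_inv] at h1
        exact h1
    obtain ⟨s, hs, hse⟩ := H96.mem_autInducedBy.1 hδ
    refine ⟨s * m, S.mul_mem hs (hMN hm).1, fun x hx => ?_⟩
    have h3 := hse (c (γ' ⟨x, hx⟩))
    rw [MulAut.mul_apply, MulAut.mul_apply, MulAut.mul_apply, MulAut.inv_apply_self, MulAut.inv_apply_self,
      hγ'e, hce, hce, hγ'e] at h3
    rw [h3]
    group
  obtain ⟨f', M', hf', hf'e, -⟩ := hg'.extend (H94.fullyNormalized_spec hS hF hW').2 hext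
  have hVS : W' ⊔ M ≤ S := sup_le hW'S (hMK.trans hK.1)
  have := H96.finite_of_le hVS
  have hf'W : Mor F W' W' f' := hg'.congr fun x hx => (hf'e x hx).symm
  have hf'M : ∀ m ∈ M, f' m ∈ M := by
    intro m hm
    rw [hMdef]
    obtain ⟨ψ, hψ, -, hψv⟩ := id hf'
    refine ⟨?_, hf'.map_mem_normalizerIn hf'W le_sup_left (Subgroup.mem_sup_right hm) (hMN hm).2⟩
    rw [← hψv ⟨m, Subgroup.mem_sup_right hm⟩]
    exact H93.StronglyClosed.apply_mem hK hψ _ (hMK hm)
  have hf'V : Mor F (W' ⊔ M) (W' ⊔ M) f' := mor_restrict_sup hf' le_rfl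
    (fun x hx => Subgroup.mem_sup_left (hf'W.map_mem hx)) (fun m hm => Subgroup.mem_sup_right (hf'M m hm))
  obtain ⟨α₁, hα₁, hα₁e⟩ := hf'V.exists_aut
  have hα₁W : ∀ y : W', α₁ (Subgroup.inclusion le_sup_left y) = Subgroup.inclusion le_sup_left (γ' y) :=
    fun y => Subtype.ext ((hα₁e _).trans ((hf'e y y.2).trans (hγ'e y).symm))
  have : Finite (MulAut ↥(W' ⊔ M)) :=
    Finite.of_injective (fun e : MulAut ↥(W' ⊔ M) => (e : _ → _)) DFunLike.coe_injective
  obtain ⟨n, hn, hαn⟩ := exists_coprime_pow (p := p) _ hα₁W hγ'p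
  obtain ⟨G, hG, hGe⟩ := H93.exists_mor_of_aut hVS (pow_mem hα₁ n)
  have hGW : ∀ y ∈ W', G y = g' y := fun y hy =>
    (hGe ⟨y, Subgroup.mem_sup_left hy⟩).trans ((congrArg Subtype.val (hαn ⟨y, hy⟩)).trans (hγ'e ⟨y, hy⟩))
  -- the elements of `K` in the new subgroup are fixed
  obtain ⟨X', hX', hkX⟩ := hπ'.restrict hXA
  have hVN : W' ⊔ M ≤ normalizerIn S W' := sup_le (H93.le_normalizerIn hW'S) hMN
  have hMfix : ∀ m ∈ M, G m = m := by
    intro m hm
    have hX'V : X' ≤ W' ⊔ M := (hX'.trans hA'').trans le_sup_left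
    have hX'g : ∀ y ∈ X', G y = y := by
      intro y hy
      obtain ⟨x, hx, rfl⟩ := hkX.surj hy
      rw [hGW _ (hA'' (hπ'.map_mem (hXA hx)))]
      show g' (k (π x)) = k (π x)
      rw [hga' ⟨x, hXA hx⟩, hfix ⟨x, hXA hx⟩ hx]
    have hnor : ∀ y : ↥(W' ⊔ M), (y : Ω) ∈ X' → ∀ z : ↥(W' ⊔ M), (z : Ω) ∈ M →
        ((y * z * y⁻¹ : ↥(W' ⊔ M)) : Ω) ∈ M := by
      intro y hy z hz
      exact hMdef.ge ⟨H93.StronglyClosed.conj_mem hK (hVS y.2) (hMK hz),
        Subgroup.mul_mem _ (Subgroup.mul_mem _ (hVN y.2) (hVN z.2)) (Subgroup.inv_mem _ (hVN y.2))⟩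
    have key := fix_of_fix_centralizer (p := p) (hS.to_le hVS) (α₁ ^ n) hn (X'.subgroupOf (W' ⊔ M))
      (M.subgroupOf (W' ⊔ M)) (by
        rw [Subgroup.le_normalizer_iff]
        exact fun y hy z hz => hnor y hy z hz)
      (fun y hy => Subtype.ext ((hGe y).symm.trans (hX'g y hy)))
      (fun z hz => by
        clear hnor
        have hcl : ∀ (j : ℕ) (z : ↥(W' ⊔ M)), (z : Ω) ∈ M → (((α₁ ^ j) z : ↥(W' ⊔ M)) : Ω) ∈ M := by
          intro j
          induction j with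
          | zero => exact fun z hz => hz
          | succ j ih =>
            intro z hz
            rw [pow_succ', MulAut.mul_apply, hα₁e]
            exact hf'M _ (ih z hz)
        exact hcl n z hz)
      (fun z hz hcen => by
        have hzc : (z : Ω) ∈ K ⊓ normalizerIn S X' := by
          refine ⟨hMK hz, hVS z.2, Subgroup.centralizer_le_normalizer _ (Subgroup.mem_centralizer_iff.2 ?_)⟩
          intro y hy
          exact congrArg Subtype.val (hcen ⟨y, hX'V hy⟩ hy)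
        have hzW := hA'' (inf_normalizer_le hS hF hK hX hXA hKA hπ' hkX hzc)
        refine Subtype.ext ((hGe z).symm.trans ?_)
        rw [hGW _ hzW, hg'K _ hzW (hMK hz)])
      (m := ⟨m, Subgroup.mem_sup_right hm⟩) hm
    exact (hGe ⟨m, Subgroup.mem_sup_right hm⟩).trans (congrArg Subtype.val key)
  refine ⟨W' ⊔ M, ⟨A'', _, G, α₁ ^ n, hVS, hπ', hA''.trans le_sup_left, hG, fun y => (hGe y).symm, hn,
    fun y hy hyK => hMfix y (hMdef ▸ ⟨hyK, hVN hy⟩), fun x => ?_⟩, Or.inr ?_⟩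
  · rw [hGW _ (hA'' (hπ'.map_mem x.2))]
    exact hga' x
  · rw [hk.card_eq]
    refine lt_of_le_of_ne (Subgroup.card_le_of_le le_sup_left) fun h => htW ?_
    exact (Subgroup.eq_of_le_of_card_ge le_sup_left h.ge).ge (Subgroup.mem_sup_right htM)

/-- The climbing. -/
theorem exists_fix [Finite S] [Fact p.Prime] (hS : IsPGroup p S) (hF : F.IsSaturated p)
    (hK : F.StronglyClosed K) (hX : F.IsFullyNormalized X) (hXA : X ≤ A) (hKA : K ⊓ normalizerIn S X ≤ A)
    (hAN : A ≤ normalizerIn S X) {a : MulAut A} (ha : a ∈ F.autGroup A) (hp : (orderOf a).Coprime p)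
    (hfix : ∀ x : A, (x : Ω) ∈ X → a x = x) (hfixK : ∀ x : A, (x : Ω) ∈ K ⊓ normalizerIn S X → a x = x) :
    ∃ W, K ≤ W ∧ State F p K A a W := by
  have hAS : A ≤ S := hAN.trans inf_le_left
  obtain ⟨g, hg, hge⟩ := H93.exists_mor_of_aut hAS ha
  have h0 : State F p K A a A := ⟨A, fun x => x, g, a, hAS, Mor.id F hAS, le_rfl, hg, fun y => (hge y).symm, hp,
    fun y hy hyK => (hge ⟨y, hy⟩).trans (congrArg Subtype.val (hfixK ⟨y, hy⟩ ⟨hyK, hAN hy⟩)), fun x => hge x⟩
  suffices key : ∀ (n : ℕ) (W : Subgroup Ω), Nat.card S - Nat.card W = n → State F p K A a W →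
      ∃ W, K ≤ W ∧ State F p K A a W from key _ A rfl h0
  intro n
  induction n using Nat.strong_induction_on with
  | _ n ih =>
    intro W hn hW
    obtain ⟨W', hW', h | h⟩ := hW.step hS hF hK hX hXA hKA hfix
    · exact ⟨W', h, hW'⟩
    · refine ih _ ?_ W' rfl hW'
      have hW'S : W' ≤ S := by
        obtain ⟨_, _, _, _, hle, -⟩ := hW'
        exact hle
      have := Subgroup.card_le_of_le hW'S
      omega

end Cfsg.Agent.H94.Balance
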