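import Cfsg.Agent.H94.ConstrainedComponent
import Cfsg.Agent.H94.NormalizerModel
import Cfsg.Agent.H93.Realized
import Cfsg.Agent.H50.CentralizerCharP
import Cfsg.Agent.S5090

/-! Centralizer systems inside normalizer and centralizer systems, their transport and their models. -/

set_option autoImplicit false

universe u

namespace Cfsg.Agent.H94

open Cfsg Cfsg.FusionSystem
open Cfsg.Agent.H93 (Mor)
open Cfsg.Agent.H96 (isCentric_core exists_ext_of_normal eq_of_isConj_normal)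

variable {Ω : Type u} [Group Ω] {S : Subgroup Ω} {F : FusionSystem S} {p : ℕ}

/-- Systems over equal subgroups with the same maps are constrained together. -/
theorem isConstrained_congr {T T' : Subgroup Ω} (hT : T = T') {A : FusionSystem T} {B : FusionSystem T'}
    (h : ∀ P, A.Hom P = B.Hom P) (hA : A.IsConstrained p) : B.IsConstrained p := by
  subst hT
  exact H93.fs_ext h ▸ hA

/-- A map with the source generated by two subgroups sent into `K` sends the source into `K`. -/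
theorem mor_mem_of_sup {A B K X Y : Subgroup Ω} {f : Ω → Ω} (hf : Mor F X Y f) (hX : X ≤ A ⊔ B)
    (hA : A ≤ X) (hB : B ≤ X) (h1 : ∀ a ∈ A, f a ∈ K) (h2 : ∀ b ∈ B, f b ∈ K) :
    ∀ x ∈ X, f x ∈ K := by
  obtain ⟨φ, -, -, hv⟩ := hf
  intro x hx
  have hle : A ⊔ B ≤ (K.comap φ).map X.subtype := sup_le
    (fun a ha => ⟨⟨a, hA ha⟩, Subgroup.mem_comap.2 ((hv ⟨a, hA ha⟩).symm ▸ h1 a ha), rfl⟩)
    (fun b hb => ⟨⟨b, hB hb⟩, Subgroup.mem_comap.2 ((hv ⟨b, hB hb⟩).symm ▸ h2 b hb), rfl⟩)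
  obtain ⟨y, hy, rfl⟩ := hle (hX hx)
  exact hv y ▸ hy

/-- A map of the centralizer system as a total function. -/
theorem exists_mor_of_centralizerHom {U P : Subgroup Ω} {φ : P →* Ω} (hφ : φ ∈ F.centralizerHom U P) :
    ∃ (f : Ω → Ω) (Y : Subgroup Ω), Mor F (P ⊔ U) Y f ∧ (∀ x : P, f x = φ x) ∧ ∀ u ∈ U, f u = u := by
  obtain ⟨-, -, -, ψ, hψ, h1, h2⟩ := hφ
  obtain ⟨f, hf, hfe⟩ := H93.exists_mor hψ rfl
  exact ⟨f, _, hf, fun x => (hfe (Subgroup.inclusion le_sup_left x)).trans (h1 x),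
    fun u hu => (hfe (Subgroup.inclusion le_sup_right (⟨u, hu⟩ : U))).trans (h2 ⟨u, hu⟩)⟩

/-- Membership in the centralizer system from a total function. -/
theorem mem_centralizerHom_of_mor {U P X Y : Subgroup Ω} {f : Ω → Ω} {φ : P →* Ω} (hf : Mor F X Y f)
    (hX : P ⊔ U ≤ X) (hP : P ≤ centralizerIn S U) (hv : ∀ x : P, φ x ∈ centralizerIn S U)
    (h1 : ∀ x : P, φ x = f x) (h2 : ∀ u ∈ U, f u = u) : φ ∈ F.centralizerHom U P := by
  obtain ⟨χ, hχ, -, hχv⟩ := hf
  refine ⟨?_, hP, hv, χ.comp (Subgroup.inclusion hX), H93.restrict_mem hχ hX, fun x => ?_, fun x => ?_⟩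
  · exact H93.mem_of_restrict hχ (le_sup_left.trans hX) fun x => (h1 x).trans (hχv (Subgroup.inclusion (le_sup_left.trans hX) x)).symm
  · exact (hχv _).trans (h1 x).symm
  · exact (hχv _).trans (h2 x x.2)

/-- The centralizer of `U` inside the normalizer system of `U`. -/
theorem centralizerHom_normalizerSystem {U P : Subgroup Ω} {E : FusionSystem (normalizerIn S U)}
    (hE : F.IsNormalizerSystem U E) (hU : U ≤ S) : E.centralizerHom U P = F.centralizerHom U P := by
  have hCN : centralizerIn (normalizerIn S U) U = centralizerIn S U :=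
    le_antisymm (fun x hx => ⟨hx.1.1, hx.2⟩) fun x hx => ⟨H93.centralizerIn_le_normalizerIn S U hx, hx.2⟩
  ext φ
  constructor
  · rintro ⟨hφ, hP, hv, ψ, hψ, h1, h2⟩
    rw [hE] at hφ hψ
    exact ⟨hφ.1, hP.trans hCN.le, fun x => hCN.le (hv x), ψ, hψ.1, h1, h2⟩
  · rintro ⟨hφ, hP, hv, ψ, hψ, h1, h2⟩
    have hPN : P ≤ normalizerIn S U := hP.trans (H93.centralizerIn_le_normalizerIn S U)
    have hUN : U ≤ normalizerIn S U := H93.le_normalizerIn hU
    have hfix : H93.imgIn ψ U = U := H93.imgIn_eq_of_fix le_sup_right h2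
    refine ⟨?_, hP.trans hCN.ge, fun x => hCN.ge (hv x), ψ, ?_, h1, h2⟩
    · rw [hE]
      exact ⟨hφ, hPN, fun x => H93.centralizerIn_le_normalizerIn S U (hv x), ψ, hψ, h1, hfix⟩
    · rw [hE]
      have hle : (P ⊔ U) ⊔ U ≤ P ⊔ U := sup_le le_rfl le_sup_right
      refine ⟨hψ, sup_le hPN hUN, ?_, ψ.comp (Subgroup.inclusion hle), H93.restrict_mem hψ hle,
        fun x => rfl, H93.imgIn_eq_of_fix le_sup_right fun x => h2 x⟩
      intro x
      have h := H93.extension_apply_mem h1 hfix (T := normalizerIn S U)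
        (fun y => H93.centralizerIn_le_normalizerIn S U (hv y)) x
      rwa [sup_eq_left.2 hUN] at h

/-- The centralizer of `U` inside the centralizer system of a subgroup of `U`. -/
theorem centralizerHom_centralizerSystem {X U P : Subgroup Ω} (hX : X ≤ S) (hXU : X ≤ U)
    (hU : U ≤ centralizerIn S X) :
    (H93.centralizerSystem F X hX).centralizerHom U P = F.centralizerHom U P := by
  have hCC : centralizerIn (centralizerIn S X) U = centralizerIn S U :=
    le_antisymm (fun x hx => ⟨hx.1.1, hx.2⟩) fun x hx => ⟨⟨hx.1, Subgroup.centralizer_le hXU hx.2⟩, hx.2⟩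
  ext φ
  constructor
  · rintro ⟨hφ, hP, hv, ψ, hψ, h1, h2⟩
    exact ⟨hφ.1, hP.trans hCC.le, fun x => hCC.le (hv x), ψ, hψ.1, h1, h2⟩
  · intro hφ
    obtain ⟨f, Y, hf, h1, h2⟩ := exists_mor_of_centralizerHom hφ
    have hP := hφ.2.1
    have hPX : P ≤ centralizerIn S X := fun x hx => (hCC.ge (hP hx)).1
    refine ⟨?_, hP.trans hCC.ge, fun x => hCC.ge (hφ.2.2.1 x), ?_⟩
    · exact mem_centralizerHom_of_mor hf (sup_le_sup_left hXU P) hPX (fun x => (hCC.ge (hφ.2.2.1 x)).1)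
        (fun x => (h1 x).symm) fun u hu => h2 u (hXU hu)
    · obtain ⟨χ, hχ, -, hχv⟩ := id hf
      refine ⟨χ, mem_centralizerHom_of_mor hf (sup_le le_rfl (hXU.trans le_sup_right)) (sup_le hPX hU)
        (fun x => hχv x ▸ mor_mem_of_sup hf le_rfl le_sup_left le_sup_right
          (fun a ha => (h1 ⟨a, ha⟩).symm ▸ (hCC.ge (hφ.2.2.1 ⟨a, ha⟩)).1)
          (fun b hb => (h2 b hb).symm ▸ hU hb) x x.2)
        hχv (fun u hu => h2 u (hXU hu)),
        fun x => (hχv _).trans (h1 x), fun x => (hχv _).trans (h2 x x.2)⟩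

variable [Finite S] [Fact p.Prime]

/-- The centralizer system is not constrained if the normalizer system is not. -/
theorem not_isConstrained_centralizerSystem (hS : IsPGroup p S) (hF : F.IsSaturated p) {U : Subgroup Ω}
    (hU : F.IsFullyNormalized U) {E : FusionSystem (normalizerIn S U)} (hE : F.IsNormalizerSystem U E)
    (hEc : ¬ E.IsConstrained p) : ¬ (H93.centralizerSystem F U hU.1).IsConstrained p := by
  intro hc
  have hNS : normalizerIn S U ≤ S := inf_le_left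
  have := H96.finite_of_le hNS
  have hUn := isNormal_normalizerSystem hU.1 hE
  have hEs := H93.IsNormalizerSystem.isSaturated hS hF hU hE
  have hD := centralizerSystem_isNormalIn (hS.to_le hNS) hEs hUn
  have hDc : (H93.centralizerSystem E U hUn.1).IsConstrained p :=
    isConstrained_congr (show centralizerIn S U = centralizerIn (normalizerIn S U) U from
      le_antisymm (fun x hx => ⟨H93.centralizerIn_le_normalizerIn S U hx, hx.2⟩) (fun x hx => ⟨hx.1.1, hx.2⟩)) (fun P => (centralizerHom_normalizerSystem hE hU.1).symm) hc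
  have hcore := core_le_core (hS.to_le hNS) hD.1
  have hCS : centralizerIn (normalizerIn S U) U ≤ normalizerIn S U := inf_le_left
  have := H96.finite_of_le hCS
  have hRc := (isCentric_core hDc).2 _ (H93.isConj_refl _ (H96.isNormal_core _).1)
  have hUQ : U ≤ E.core := le_sSup (α := Subgroup Ω) hUn
  refine hEc ⟨hEs, E.core, H96.isNormal_core E, (H96.isNormal_core E).1, fun R hR => ?_⟩
  rw [eq_of_isConj_normal (H96.isNormal_core E) hR]
  exact fun x hx => hcore (hRc ⟨⟨hx.1, Subgroup.centralizer_le hUQ hx.2⟩, Subgroup.centralizer_le hcore hx.2⟩)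

/-- Constrainedness of centralizer systems along maps of the system. -/
theorem isConstrained_centralizerSystem_transport (hS : IsPGroup p S) (hF : F.IsSaturated p)
    {U U' A A' : Subgroup Ω} {g : Ω → Ω} (hUc : F.IsFullyCentralized U) (hU'S : U' ≤ S) (hg : Mor F A A' g)
    (hUA : U ≤ A) (hCA : centralizerIn S U ≤ A) (hgU : Mor F U U' g)
    (hgC : Mor F (centralizerIn S U) (centralizerIn S U') g)
    (hc : (H93.centralizerSystem F U' hU'S).IsConstrained p) :
    (H93.centralizerSystem F U hUc.1).IsConstrained p := by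
  obtain ⟨gi, hgi, hgig, hggi⟩ := hg.exists_inv
  have hU'A : U' ≤ A' := fun y hy => by
    obtain ⟨x, hx, rfl⟩ := hgU.surj hy
    exact hg.map_mem (hUA hx)
  have hC'A : centralizerIn S U' ≤ A' := fun y hy => by
    obtain ⟨x, hx, rfl⟩ := hgC.surj hy
    exact hg.map_mem (hCA hx)
  have hgiC : ∀ y ∈ centralizerIn S U', gi y ∈ centralizerIn S U := fun y hy => by
    obtain ⟨x, hx, rfl⟩ := hgC.surj hy
    rwa [hgig x (hCA hx)]
  have : Finite ↥(centralizerIn S U') := H96.finite_of_le inf_le_left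
  have hCfin : Finite ↥(centralizerIn S U) := H96.finite_of_le inf_le_left
  obtain ⟨R', hR'⟩ : ∃ R', R' = (H93.centralizerSystem F U' hU'S).core := ⟨_, rfl⟩
  have hR'n : (H93.centralizerSystem F U' hU'S).IsNormal R' := hR' ▸ H96.isNormal_core _
  have hR'c : centralizerIn (centralizerIn S U') R' ≤ R' :=
    (hR' ▸ isCentric_core hc : (H93.centralizerSystem F U' hU'S).IsCentric R').2 _
      (H93.isConj_refl _ hR'n.1)
  have hR'A : R' ≤ A' := hR'n.1.trans hC'A
  obtain ⟨R, hRA, hR⟩ := hgi.restrict hR'A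
  have hRC : R ≤ centralizerIn S U := fun x hx => by
    obtain ⟨y, hy, rfl⟩ := hR.surj hx
    exact hgiC y (hR'n.1 hy)
  have hgR : ∀ r ∈ R, g r ∈ R' := fun r hr => by
    obtain ⟨y, hy, rfl⟩ := hR.surj hr
    rwa [hggi y (hR'A hy)]
  have hsat := H93.IsCentralizerSystem.isSaturated hS hF hUc
    (E := H93.centralizerSystem F U hUc.1) (fun _ => rfl)
  have hRn : (H93.centralizerSystem F U hUc.1).IsNormal R := by
    refine H96.isNormal_of_mapsTo _ hRC fun P φ hφ => ?_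
    obtain ⟨f, Y, hf, hf1, hf2⟩ := exists_mor_of_centralizerHom hφ
    have hPC : P ≤ centralizerIn S U := hφ.2.1
    have hφC : ∀ x : P, φ x ∈ centralizerIn S U := hφ.2.2.1
    have hPA : P ⊔ U ≤ A := sup_le (hPC.trans hCA) hUA
    obtain ⟨Z, hZA, hgZ⟩ := hg.restrict hPA
    obtain ⟨P', hP'Z, hgP⟩ := hgZ.restrict (le_sup_left : P ≤ P ⊔ U)
    obtain ⟨gz, hgz, hgzg, -⟩ := hgZ.exists_inv
    have hYA : Y ≤ A := fun y hy => by
      obtain ⟨x, hx, rfl⟩ := hf.surj hy
      exact mor_mem_of_sup hf le_rfl le_sup_left le_sup_right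
        (fun a ha => (hf1 ⟨a, ha⟩).symm ▸ hCA (hφC ⟨a, ha⟩)) (fun b hb => (hf2 b hb).symm ▸ hUA hb) x hx
    obtain ⟨Y', hY'A, hgY⟩ := hg.restrict hYA
    obtain ⟨φ', hφ', hφ'r, hφ'v⟩ := (hgY.comp (hf.comp hgz))
    have hU'Z : U' ≤ Z := fun y hy => by
      obtain ⟨u, hu, rfl⟩ := hgU.surj hy
      exact hgZ.map_mem (le_sup_right (a := P) hu)
    have hP'C : P' ≤ centralizerIn S U' := fun y hy => by
      obtain ⟨x, hx, rfl⟩ := hgP.surj hy
      exact hgC.map_mem (hPC hx)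
    have hφ'C : φ'.comp (Subgroup.inclusion hP'Z) ∈ F.centralizerHom U' P' := by
      refine mem_centralizerHom_of_mor (hgY.comp (hf.comp hgz)) (sup_le hP'Z hU'Z) hP'C (fun x => ?_)
        (fun x => hφ'v _) fun y hy => ?_
      · obtain ⟨x₀, hx₀, hx₀e⟩ := hgP.surj x.2
        show φ' (Subgroup.inclusion hP'Z x) ∈ _
        rw [hφ'v]
        show g (f (gz (x : Ω))) ∈ _
        rw [← hx₀e, hgzg x₀ (le_sup_left (b := U) hx₀)]
        rw [show f x₀ = φ ⟨x₀, hx₀⟩ from hf1 ⟨x₀, hx₀⟩]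
        exact hgC.map_mem (hφC _)
      · obtain ⟨u, hu, rfl⟩ := hgU.surj hy
        show g (f (gz (g u))) = g u
        rw [hgzg u (le_sup_right (a := P) hu), hf2 u hu]
    obtain ⟨ψ, hψ, hψe, hψR⟩ := exists_ext_of_normal hR'n hφ'C
    obtain ⟨f', Y₂, hf', hf'1, hf'2⟩ := exists_mor_of_centralizerHom hψ
    have hψC : ∀ x, ψ x ∈ centralizerIn S U' := hψ.2.2.1
    have hWA : P ⊔ R ⊔ U ≤ A := sup_le (sup_le (hPC.trans hCA) (hRC.trans hCA)) hUA
    obtain ⟨W, hWA', hgW⟩ := hg.restrict hWA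
    have hW : W ≤ P' ⊔ R' ⊔ U' := fun w hw => by
      obtain ⟨x, hx, rfl⟩ := hgW.surj hw
      refine mor_mem_of_sup hgW le_rfl le_sup_left le_sup_right (fun a ha => ?_)
        (fun u hu => le_sup_right (a := P' ⊔ R') (hgU.map_mem hu)) x hx
      have hPR : P ⊔ R ≤ P ⊔ R ⊔ U := le_sup_left
      obtain ⟨V, -, hgV⟩ := hgW.restrict hPR
      exact mor_mem_of_sup hgV le_rfl le_sup_left le_sup_right
        (fun b hb => le_sup_left (b := U') (le_sup_left (b := R') (hgP.map_mem hb)))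
        (fun b hb => le_sup_left (b := U') (le_sup_right (a := P') (hgR b hb))) a ha
    obtain ⟨W₂, hW₂, hfW⟩ := hf'.restrict hW
    have hW₂A : W₂ ≤ A' := fun w hw => by
      obtain ⟨x, hx, rfl⟩ := hfW.surj hw
      exact mor_mem_of_sup hf' le_rfl le_sup_left le_sup_right
        (fun a ha => (hf'1 ⟨a, ha⟩).symm ▸ hC'A (hψC ⟨a, ha⟩)) (fun b hb => (hf'2 b hb).symm ▸ hU'A hb)
        x (hW hx)
    obtain ⟨W₃, -, hgiW⟩ := hgi.restrict hW₂A
    have hk := hgiW.comp (hfW.comp hgW)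
    obtain ⟨ρ, hρ, hρr, hρv⟩ := id hk
    have hkmem : ∀ x ∈ P ⊔ R, gi (f' (g x)) ∈ centralizerIn S U := by
      intro x hx
      have h1 : g x ∈ P' ⊔ R' := by
        obtain ⟨V, -, hgV⟩ := hgW.restrict (le_sup_left : P ⊔ R ≤ P ⊔ R ⊔ U)
        exact mor_mem_of_sup hgV le_rfl le_sup_left le_sup_right
          (fun b hb => le_sup_left (b := R') (hgP.map_mem hb))
          (fun b hb => le_sup_right (a := P') (hgR b hb)) x hx
      exact hgiC _ ((hf'1 ⟨g x, h1⟩).symm ▸ hψC ⟨g x, h1⟩)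
    refine ⟨ρ.comp (Subgroup.inclusion le_sup_left), mem_centralizerHom_of_mor hk le_rfl
      (sup_le hPC hRC) (fun x => (hρv _).symm ▸ hkmem x x.2) (fun x => hρv _) (fun u hu => ?_),
      fun x => ?_, fun x => ?_⟩
    · show gi (f' (g u)) = u
      rw [hf'2 _ (hgU.map_mem hu), hgig u (hUA hu)]
    · show ρ _ = φ x
      rw [hρv]
      show gi (f' (g (x : Ω))) = φ x
      rw [show f' (g (x : Ω)) = ψ (Subgroup.inclusion le_sup_left ⟨g x, hgP.map_mem x.2⟩) from hf'1 (Subgroup.inclusion le_sup_left (⟨g x, hgP.map_mem x.2⟩ : P')),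
        hψe ⟨g x, hgP.map_mem x.2⟩]
      show gi (φ' (Subgroup.inclusion hP'Z ⟨g x, hgP.map_mem x.2⟩)) = φ x
      rw [hφ'v]
      show gi (g (f (gz (g (x : Ω))))) = φ x
      rw [hgzg x (le_sup_left (b := U) x.2), hf1 x, hgig _ (hCA (hφC x))]
    · show ρ _ ∈ R
      rw [hρv]
      show gi (f' (g (x : Ω))) ∈ R
      rw [show f' (g (x : Ω)) = ψ (Subgroup.inclusion le_sup_right ⟨g x, hgR x x.2⟩) from hf'1 (Subgroup.inclusion le_sup_right (⟨g x, hgR x x.2⟩ : R'))]
      exact hR.map_mem (hψR _)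
  refine ⟨hsat, R, hRn, hRC, fun Q hQ => ?_⟩
  rw [eq_of_isConj_normal hRn hQ]
  intro x hx
  have h1 : g x ∈ R' := by
    refine hR'c ⟨hgC.map_mem hx.1, Subgroup.mem_centralizer_iff.2 fun y hy => ?_⟩
    have hr : gi y ∈ R := hR.map_mem hy
    rw [← hggi y (hR'A hy), ← hg.map_mul (hRA hr) (hCA hx.1), ← hg.map_mul (hCA hx.1) (hRA hr),
      Subgroup.mem_centralizer_iff.1 hx.2 _ hr]
  rw [← hgig x (hCA hx.1)]
  exact hR.map_mem h1

/-- The centralizer system of a fully centralized subgroup in a constrained system is constrained. -/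
theorem isConstrained_centralizerSystem_of_isConstrained (hS : IsPGroup p S) (hc : F.IsConstrained p)
    {U : Subgroup Ω} (hU : F.IsFullyCentralized U) :
    (H93.centralizerSystem F U hU.1).IsConstrained p := by
  obtain ⟨G, _, ι, hG⟩ := S5090.result p hS F hc
  obtain ⟨hfin, hr, ⟨T, hT⟩, hC⟩ := hG
  obtain ⟨hi, hiff⟩ := id hr
  have hK : centralizerIn S U ≤ S := inf_le_left
  have hKfin := H96.finite_of_le hK
  obtain ⟨V, hV⟩ : ∃ V, V = (U.subgroupOf S).map ι := ⟨_, rfl⟩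
  have hVT : V ≤ ι.range := hV ▸ Subgroup.map_le_range ι _
  have hVp : IsPGroup p V := T.isPGroup'.to_le (hT.ge.trans' hVT)
  have hVmem : ∀ u : S, (u : Ω) ∈ U → ι u ∈ V := fun u hu => hV ▸ ⟨u, hu, rfl⟩
  have hmemG : ∀ x : centralizerIn S U, ι (Subgroup.inclusion hK x) ∈ Subgroup.centralizer (V : Set G) := by
    intro x
    rw [Subgroup.mem_centralizer_iff]
    intro v hv
    rw [hV] at hv
    obtain ⟨u, hu, rfl⟩ := hv
    rw [← map_mul, ← map_mul]
    exact congrArg ι (Subtype.ext (Subgroup.mem_centralizer_iff.1 x.2.2 u hu))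
  obtain ⟨ι', hι'⟩ : ∃ ι' : ↥(centralizerIn S U) →* ↥(Subgroup.centralizer (V : Set G)),
      ι' = (ι.comp (Subgroup.inclusion hK)).codRestrict _ hmemG := ⟨_, rfl⟩
  have hι'v : ∀ x, ((ι' x : Subgroup.centralizer (V : Set G)) : G) = ι (Subgroup.inclusion hK x) :=
    fun x => by rw [hι']; rfl
  have hi' : Function.Injective ι' := fun x y h =>
    Subgroup.inclusion_injective hK (hi (by rw [← hι'v, ← hι'v, h]))
  have hrealized : (H93.centralizerSystem F U hU.1).IsRealizedBy ι' := by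
    refine ⟨hi', fun P hP φ hv => ⟨fun hφ => ?_, fun ⟨c, hc'⟩ => ?_⟩⟩
    · obtain ⟨-, -, -, ψ, hψ, h1, h2⟩ := hφ
      obtain ⟨c, hc'⟩ := (hiff (P ⊔ U) (sup_le (hP.trans hK) hU.1) ψ fun x => (F.le_of_mem hψ).2 x).1 hψ
      have hcV : c ∈ Subgroup.centralizer (V : Set G) := by
        rw [Subgroup.mem_centralizer_iff]
        intro v hv'
        rw [hV] at hv'
        obtain ⟨u, hu, rfl⟩ := hv'
        have h := hc' ⟨u, le_sup_right (a := P) hu⟩
        rw [show (⟨ψ ⟨u, le_sup_right (a := P) hu⟩, (F.le_of_mem hψ).2 _⟩ : S) = u from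
          Subtype.ext (h2 ⟨u, hu⟩)] at h
        exact (eq_mul_inv_iff_mul_eq.1 h)
      refine ⟨⟨c, hcV⟩, fun x => Subtype.ext ?_⟩
      rw [Subgroup.coe_mul, Subgroup.coe_mul, Subgroup.coe_inv, hι'v, hι'v]
      refine Eq.trans (congrArg ι (Subtype.ext ?_)) (hc' (Subgroup.inclusion le_sup_left x))
      exact (h1 x).symm
    · have hle : P ⊔ U ≤ S := sup_le (hP.trans hK) hU.1
      obtain ⟨f, hf⟩ : ∃ f : ↥(P ⊔ U) →* G,
          f = ((MulAut.conj (c : G)).toMonoidHom.comp ι).comp (Subgroup.inclusion hle) := ⟨_, rfl⟩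
      have hfv' : ∀ x, f x = (c : G) * ι ⟨x, hle x.2⟩ * (c : G)⁻¹ := fun x => by rw [hf]; rfl
      have hfP : ∀ x : P, f (Subgroup.inclusion le_sup_left x) = ι ⟨φ x, hK (hv x)⟩ := fun x => by
        have h := congrArg Subtype.val (hc' x)
        rw [Subgroup.coe_mul, Subgroup.coe_mul, Subgroup.coe_inv, hι'v, hι'v] at h
        exact (hfv' _).trans h.symm
      have hfU : ∀ u : U, f (Subgroup.inclusion le_sup_right u) = ι ⟨u, hU.1 u.2⟩ := fun u => by
        rw [hfv']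
        have h := Subgroup.mem_centralizer_iff.1 c.2 _ (hVmem ⟨u, hU.1 u.2⟩ u.2)
        exact mul_inv_eq_iff_eq_mul.2 h.symm
      have hfr : ∀ x, f x ∈ ι.range := by
        have hsup : P ⊔ U ≤ (ι.range.comap f).map (P ⊔ U).subtype := sup_le
          (fun x hx => ⟨⟨x, le_sup_left (b := U) hx⟩, ⟨_, (hfP ⟨x, hx⟩).symm⟩, rfl⟩)
          (fun x hx => ⟨⟨x, le_sup_right (a := P) hx⟩, ⟨_, (hfU ⟨x, hx⟩).symm⟩, rfl⟩)
        intro x
        obtain ⟨z, hz, e⟩ := hsup x.2
        rwa [← Subtype.ext e]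
      obtain ⟨ψ, hψdef⟩ : ∃ ψ : ↥(P ⊔ U) →* Ω,
          ψ = (H93.realizedInv hi).comp (f.codRestrict ι.range hfr) := ⟨_, rfl⟩
      have hψS : ∀ x, ψ x ∈ S := fun x => by rw [hψdef]; exact H93.realizedInv_mem hi _
      have hψ : ψ ∈ F.Hom (P ⊔ U) := (hiff _ hle ψ hψS).2 ⟨c, fun x => by
        subst hψdef
        exact (H93.apply_realizedInv hi _ (hψS x)).trans (hfv' x)⟩
      have hext : ∀ x : P, ψ (Subgroup.inclusion le_sup_left x) = φ x := fun x => by
        rw [hψdef, MonoidHom.comp_apply]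
        refine Eq.trans ?_ (H93.realizedInv_apply hi ⟨φ x, hK (hv x)⟩ ⟨_, rfl⟩)
        congr 1
        exact Subtype.ext (hfP x)
      refine ⟨H93.mem_of_restrict hψ le_sup_left fun x => (hext x).symm, hP, hv, ψ, hψ, hext, fun u => ?_⟩
      rw [hψdef, MonoidHom.comp_apply]
      refine Eq.trans ?_ (H93.realizedInv_apply hi ⟨u, hU.1 u.2⟩ ⟨_, rfl⟩)
      congr 1
      exact Subtype.ext (hfU u)
  have hG' : (Subgroup.centralizer (Cfsg.pCore p ↥(Subgroup.centralizer (V : Set G)) :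
      Set ↥(Subgroup.centralizer (V : Set G)))) ≤ Cfsg.pCore p ↥(Subgroup.centralizer (V : Set G)) := by
    refine H50.charP_centralizer_mono (bot_le : (⊥ : Subgroup G) ≤ V) hVp ?_
    have htop : Subgroup.centralizer ((⊥ : Subgroup G) : Set G) = ⊤ :=
      top_le_iff.1 fun x _ => Subgroup.mem_centralizer_iff.2 fun y hy => by
        rw [Subgroup.mem_bot.1 hy, one_mul, mul_one]
    rw [htop]
    exact H74.charP_congr Subgroup.topEquiv.symm hC
  have hp' : IsPGroup p ι'.range := (hS.to_le hK).of_surjective _ ι'.rangeRestrict_surjective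
  obtain ⟨R, hR⟩ := hp'.exists_le_sylow
  refine H93.IsModel.isConstrained ⟨inferInstance, hrealized, ⟨R, ?_⟩, hG'⟩
  refine (Subgroup.eq_of_le_of_card_ge hR ?_).symm
  -- a conjugate of a `p`-subgroup of the centralizer lies in the image of `S`
  obtain ⟨W, hWdef⟩ : ∃ W, W = (R : Subgroup (Subgroup.centralizer (V : Set G))).map
      (Subgroup.centralizer (V : Set G)).subtype := ⟨_, rfl⟩
  have hWC : W ≤ Subgroup.centralizer (V : Set G) := hWdef ▸ Subgroup.map_subtype_le _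
  have hWp : IsPGroup p W := hWdef ▸ R.isPGroup'.map _
  have hWV : IsPGroup p ↥(W ⊔ V) := IsPGroup.to_sup_of_normal_right' hWp hVp
    (hWC.trans (Subgroup.centralizer_le_normalizer _))
  obtain ⟨T', hT'⟩ := hWV.exists_le_sylow
  obtain ⟨c, hc'⟩ := MulAction.exists_smul_eq G T' T
  have hcW : ∀ x ∈ W ⊔ V, c * x * c⁻¹ ∈ ι.range := fun x hx => by
    rw [← hT, ← hc', Sylow.coe_subgroup_smul]
    exact ⟨x, hT' hx, rfl⟩
  obtain ⟨f, hf⟩ : ∃ f : U →* G, f = ((MulAut.conj c).toMonoidHom.comp ι).comp (Subgroup.inclusion hU.1) :=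
    ⟨_, rfl⟩
  have hfr : ∀ u, f u ∈ ι.range := fun u => by
    rw [hf]
    exact hcW _ (le_sup_right (a := W) (hVmem _ u.2))
  obtain ⟨φ, hφdef⟩ : ∃ φ : U →* Ω, φ = (H93.realizedInv hi).comp (f.codRestrict ι.range hfr) := ⟨_, rfl⟩
  have hφS : ∀ u, φ u ∈ S := fun u => by rw [hφdef]; exact H93.realizedInv_mem hi _
  have hφι : ∀ u, ι ⟨φ u, hφS u⟩ = c * ι ⟨u, hU.1 u.2⟩ * c⁻¹ := fun u => by
    subst hφdef hf
    exact H93.apply_realizedInv hi _ (hφS u)
  have hφF : φ ∈ F.Hom U := (hiff U hU.1 φ hφS).2 ⟨c, hφι⟩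
  have hmax := hU.2 φ.range ⟨φ, hφF, rfl⟩
  have hUfin := H96.finite_of_le (H93.range_le hφF)
  have hin : Finite ↥(centralizerIn S φ.range) := H96.finite_of_le inf_le_left
  have hex : ∀ r : R, ∃ s : centralizerIn S φ.range,
      ι ⟨s, s.2.1⟩ = c * ((r : Subgroup.centralizer (V : Set G)) : G) * c⁻¹ := by
    intro r
    obtain ⟨s, hs⟩ := hcW _ (le_sup_left (b := V) (hWdef ▸ ⟨r, r.2, rfl⟩ :
      ((r : Subgroup.centralizer (V : Set G)) : G) ∈ W))
    refine ⟨⟨s, s.2, Subgroup.mem_centralizer_iff.2 ?_⟩, hs⟩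
    rintro _ ⟨u, rfl⟩
    have h := Subgroup.mem_centralizer_iff.1 (r : Subgroup.centralizer (V : Set G)).2 _
      (hVmem ⟨u, hU.1 u.2⟩ u.2)
    refine congrArg Subtype.val (hi (?_ : ι (⟨φ u, hφS u⟩ * s) = ι (s * ⟨φ u, hφS u⟩)))
    rw [map_mul, map_mul, hφι, hs]
    calc c * ι ⟨u, hU.1 u.2⟩ * c⁻¹ * (c * ((r : Subgroup.centralizer (V : Set G)) : G) * c⁻¹)
        = c * (ι ⟨u, hU.1 u.2⟩ * ((r : Subgroup.centralizer (V : Set G)) : G)) * c⁻¹ := by group
      _ = c * (((r : Subgroup.centralizer (V : Set G)) : G) * ι ⟨u, hU.1 u.2⟩) * c⁻¹ := by rw [h]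
      _ = _ := by group
  choose σ hσ using hex
  have hσi : Function.Injective σ := fun a b h => by
    have e := (hσ a).symm.trans ((congrArg (fun z : centralizerIn S φ.range => ι ⟨z, z.2.1⟩) h).trans (hσ b))
    exact Subtype.ext (Subtype.ext (mul_left_cancel (mul_right_cancel e)))
  exact (Nat.card_le_card_of_injective σ hσi).trans (hmax.trans
    (Nat.card_congr (Equiv.ofInjective ι' hi')).le)

end Cfsg.Agent.H94
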