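import Cfsg.Agent.H94.CentralizerLocal
import Cfsg.Agent.H19.Misc

/-! The dichotomy between characteristic `p` type and component type. -/

set_option autoImplicit false

universe u

namespace Cfsg.Agent.H94

open Cfsg Cfsg.FusionSystem
open Cfsg.Agent.H93 (Mor)

variable {Ω : Type u} [Group Ω] {S : Subgroup Ω} {F : FusionSystem S} {p : ℕ} [Finite S] [Fact p.Prime]

/-- A nontrivial subgroup contains a subgroup of order `p` centralized by its normalizer in `S`. -/
theorem exists_order_p_central (hS : IsPGroup p S) {U : Subgroup Ω} (hUS : U ≤ S) (hU : U ≠ ⊥) :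
    ∃ X : Subgroup Ω, Nat.card X = p ∧ X ≤ U ∧ normalizerIn S U ≤ centralizerIn S X := by
  have hNS : normalizerIn S U ≤ S := inf_le_left
  have := H96.finite_of_le hNS
  have hUN : U ≤ normalizerIn S U := H93.le_normalizerIn hUS
  have := (hS.to_le hNS).isNilpotent
  have : (U.subgroupOf (normalizerIn S U)).Normal := ⟨fun x hx y =>
    (Subgroup.mem_normalizer_iff.1 y.2.2 x).1 hx⟩
  have hne : U.subgroupOf (normalizerIn S U) ≠ ⊥ := fun h =>
    hU (by rw [← Subgroup.map_subgroupOf_eq_of_le hUN, h, Subgroup.map_bot])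
  obtain ⟨Z, hZ⟩ : ∃ Z, Z = U.subgroupOf (normalizerIn S U) ⊓ Subgroup.center ↥(normalizerIn S U) := ⟨_, rfl⟩
  have hZne : Z ≠ ⊥ := hZ ▸ H19.inf_center_ne_bot _ hne
  have hZp : IsPGroup p Z := (hS.to_le hNS).to_subgroup Z
  obtain ⟨k, hk⟩ := (IsPGroup.iff_card).1 hZp
  have hdvd : p ∣ Nat.card Z := by
    rw [hk]
    refine dvd_pow_self p fun h0 => hZne (Subgroup.eq_bot_of_card_eq Z ?_)
    rw [hk, h0, pow_zero]
  obtain ⟨z, hz⟩ := exists_prime_orderOf_dvd_card' p hdvd
  obtain ⟨hzU, hzc⟩ : (z : ↥(normalizerIn S U)) ∈ U.subgroupOf (normalizerIn S U) ∧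
      (z : ↥(normalizerIn S U)) ∈ Subgroup.center ↥(normalizerIn S U) := Subgroup.mem_inf.1 (hZ.le z.2)
  refine ⟨Subgroup.zpowers ((z : ↥(normalizerIn S U)) : Ω), ?_, Subgroup.zpowers_le.2 hzU,
    fun x hx => ⟨hNS hx, ?_⟩⟩
  · rw [Nat.card_zpowers, Subgroup.orderOf_coe, Subgroup.orderOf_coe, hz]
  · have h := congrArg Subtype.val (Subgroup.mem_center_iff.1 hzc ⟨x, hx⟩)
    rw [Subgroup.zpowers_eq_closure, Subgroup.centralizer_closure]
    exact Subgroup.mem_centralizer_singleton_iff.2 h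

theorem charPType_or_componentType (hS : IsPGroup p S) (hF : F.IsSaturated p) :
    F.IsOfCharacteristicPType p ∨ F.IsOfComponentType p := by
  by_cases h : F.IsOfCharacteristicPType p
  · exact Or.inl h
  right
  obtain ⟨U, hUne, hUn, E, hE, hEc⟩ : ∃ U : Subgroup Ω, U ≠ ⊥ ∧ F.IsFullyNormalized U ∧
      ∃ E : FusionSystem (normalizerIn S U), F.IsNormalizerSystem U E ∧ ¬ E.IsConstrained p := by
    by_contra hh
    push Not at hh
    exact h fun U h1 h2 E h3 => hh U h1 h2 E h3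
  have hUS : U ≤ S := hUn.1
  have hCU := not_isConstrained_centralizerSystem hS hF hUn hE hEc
  obtain ⟨X, hXcard, hXU, hXN⟩ := exists_order_p_central hS hUS hUne
  have hXS : X ≤ S := hXU.trans hUS
  obtain ⟨X₁, hconj, hX₁⟩ := H93.exists_isFullyNormalized F hXS
  obtain ⟨ψ, hψ, -, hψX⟩ := H93.exists_map_to_fullyNormalized hS hF hX₁ hconj
  obtain ⟨g, hg, hge⟩ := H93.exists_mor hψ rfl
  have hNX : normalizerIn S U ≤ normalizerIn S X :=
    hXN.trans (H93.centralizerIn_le_normalizerIn S X)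
  obtain ⟨N₁, -, hgN⟩ := hg.restrict hNX
  obtain ⟨U₁, hU₁N, hgU⟩ := hgN.restrict (H93.le_normalizerIn hUS)
  have hN₁ : N₁ = normalizerIn S U₁ := by
    have : Finite ↥(normalizerIn S U₁) := H96.finite_of_le inf_le_left
    refine Subgroup.eq_of_le_of_card_ge (fun y hy => ?_) ?_
    · obtain ⟨x, hx, rfl⟩ := hgN.surj hy
      exact hgN.map_mem_normalizerIn hgU (H93.le_normalizerIn hUS) hx hx.2
    · rw [← hgN.card_eq]
      exact hUn.2 _ hgU.isConj
  subst hN₁
  have hU₁S : U₁ ≤ S := hgU.le_right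
  have hU₁n : F.IsFullyNormalized U₁ := ⟨hU₁S, fun Q hQ =>
    (hUn.2 Q (H93.isConj_trans hgU.isConj hQ)).trans hgN.card_eq.le⟩
  have hX₁U : X₁ ≤ U₁ := by
    intro y hy
    rw [← hψX] at hy
    obtain ⟨x, hx, rfl⟩ := H93.mem_imgIn.1 hy
    rw [← hge x]
    exact hgU.map_mem (hXU hx)
  have hN₁C : normalizerIn S U₁ ≤ centralizerIn S X₁ := by
    intro y hy
    obtain ⟨x, hx, rfl⟩ := hgN.surj hy
    refine H93.mem_centralizerIn.2 ⟨hgN.le_right hy, fun b hb => ?_⟩
    rw [← hψX] at hb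
    obtain ⟨a, ha, rfl⟩ := H93.mem_imgIn.1 hb
    rw [← hge a, ← hgN.map_conj hx (H93.le_normalizerIn hUS (hXU ha)),
      (H93.mem_centralizerIn.1 (hXN hx)).2 a ha]
  have hgC : Mor F (centralizerIn S U) (centralizerIn S U₁) g := by
    have hCN := H93.centralizerIn_le_normalizerIn S U
    refine hgN.restrict_eq hCN (fun x hx => ?_) fun y hy => ?_
    · exact hgN.map_mem_centralizerIn hgU (H93.le_normalizerIn hUS) (hCN hx) (H93.mem_centralizerIn.1 hx).2
    · obtain ⟨x, hx, rfl⟩ := hgN.surj (H93.centralizerIn_le_normalizerIn S U₁ hy)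
      refine ⟨x, H93.mem_centralizerIn.2 ⟨hx.1, fun u hu => ?_⟩, rfl⟩
      have huN := H93.le_normalizerIn hUS hu
      refine hgN.injOn (Subgroup.mul_mem _ (Subgroup.mul_mem _ hx huN) (Subgroup.inv_mem _ hx)) huN ?_
      rw [hgN.map_conj hx huN, (H93.mem_centralizerIn.1 hy).2 _ (hgU.map_mem hu)]
  have hUc := fullyNormalized_fullyCentralized hS hF hUn
  have hU₁c := fullyNormalized_fullyCentralized hS hF hU₁n
  have hU₁X : U₁ ≤ centralizerIn S X₁ := hU₁N.trans hN₁C
  have hXC := fullyNormalized_fullyCentralized hS hF hX₁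
  obtain ⟨C, hCdef⟩ : ∃ C, C = H93.centralizerSystem F X₁ hX₁.1 := ⟨_, rfl⟩
  have hCsys : F.IsCentralizerSystem X₁ C := fun P => by rw [hCdef]; rfl
  have hCsat := H93.IsCentralizerSystem.isSaturated hS hF hXC hCsys
  have hCS : centralizerIn S X₁ ≤ S := inf_le_left
  have := H96.finite_of_le hCS
  have hCnc : ¬ C.IsConstrained p := by
    intro hc
    have hfc : C.IsFullyCentralized U₁ := by
      refine ⟨hU₁X, fun Q hQ => ?_⟩
      obtain ⟨φ, hφ, rfl⟩ := hQ
      rw [hCsys U₁] at hφ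
      have : Finite ↥(centralizerIn S φ.range) := H96.finite_of_le inf_le_left
      have : Finite ↥(centralizerIn (centralizerIn S X₁) U₁) := H96.finite_of_le inf_le_left
      have hle1 : centralizerIn (centralizerIn S X₁) φ.range ≤ centralizerIn S φ.range :=
        fun x hx => ⟨hx.1.1, hx.2⟩
      have hle2 : centralizerIn S U₁ ≤ centralizerIn (centralizerIn S X₁) U₁ :=
        fun x hx => ⟨⟨hx.1, Subgroup.centralizer_le hX₁U hx.2⟩, hx.2⟩
      calc Nat.card ↥(centralizerIn (centralizerIn S X₁) φ.range)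
          ≤ Nat.card ↥(centralizerIn S φ.range) :=
            Nat.card_le_card_of_injective _ (Subgroup.inclusion_injective hle1)
        _ ≤ Nat.card ↥(centralizerIn S U₁) := hU₁c.2 _ ⟨φ, hφ.1, rfl⟩
        _ ≤ _ := Nat.card_le_card_of_injective _ (Subgroup.inclusion_injective hle2)
    have h1 := isConstrained_centralizerSystem_of_isConstrained (hS.to_le hCS) hc hfc
    have h2 : (H93.centralizerSystem F U₁ hU₁S).IsConstrained p := by
      refine isConstrained_congr (T := centralizerIn (centralizerIn S X₁) U₁) (T' := centralizerIn S U₁)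
        (le_antisymm (fun x hx => ⟨hx.1.1, hx.2⟩) fun x hx =>
          ⟨⟨hx.1, Subgroup.centralizer_le hX₁U hx.2⟩, hx.2⟩) (fun P => ?_) h1
      subst hCdef
      exact centralizerHom_centralizerSystem hX₁.1 hX₁U hU₁X
    exact hCU (isConstrained_centralizerSystem_transport hS hF hUc hU₁S hgN (H93.le_normalizerIn hUS)
      (H93.centralizerIn_le_normalizerIn S U) hgU hgC h2)
  exact ⟨X₁, (H93.isConj_card_eq hconj).symm.trans hXcard, hX₁, C, hCsys,
    hasComp_of_not_constrained (hS.to_le hCS) hCsat hCnc⟩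

end Cfsg.Agent.H94
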